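import Mathlib

/-!
# Products of two conjugates of a non-split element of `GL₂` (helper147)

`F` a finite field, `τ ≠ 0`, `δ ≠ 0`. Every non-scalar `S` with `det S = δ ^ 2` and `tr S ≠ 2 δ` is a product of two
matrices of trace `τ` and determinant `δ`.
-/

set_option autoImplicit false

namespace Cfsg.Agent.H147.Two

open Matrix Polynomial

variable {F : Type*} [Field F]

/-- **the conic**: `p² + α p r + δ² r² - τ p - τ δ r + δ = 0` has a solution -/
theorem conic [Finite F] (τ δ α : F) (hτ : τ ≠ 0) (hδ : δ ≠ 0) (hα : α ≠ 2 * δ) :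
    ∃ p r : F, p ^ 2 + α * p * r + δ ^ 2 * r ^ 2 - τ * p - τ * δ * r + δ = 0 := by
  classical
  have := Fintype.ofFinite F
  by_cases h2 : ringChar F = 2
  · have h20 : (2 : F) = 0 := by
      have := ringChar.Nat.cast_ringChar (R := F)
      rw [h2] at this
      exact_mod_cast this
    have hα0 : α ≠ 0 := by
      intro h
      apply hα
      rw [h, h20, zero_mul]
    obtain ⟨s, hs⟩ := FiniteField.isSquare_of_char_two h2
      (δ ^ 2 * (τ / α) ^ 2 + τ * δ * (τ / α) + δ)
    refine ⟨s, τ / α, ?_⟩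
    have h1 : α * s * (τ / α) = τ * s := by
      field_simp
    rw [h1]
    linear_combination hs + (s * s - τ * δ * (τ / α)) * h20
  · have hodd : Fintype.card F % 2 = 1 := FiniteField.odd_card_of_char_ne_two h2
    have h20 : (2 : F) ≠ 0 := Ring.two_ne_zero h2
    have h40 : (4 : F) ≠ 0 := by
      have : (4 : F) = 2 * 2 := by norm_num
      rw [this]
      exact mul_ne_zero h20 h20
    -- find `P`, `r` with `P ^ 2 = (α² - 4 δ²) r² - 2 τ (α - 2 δ) r + τ² - 4 δ`
    obtain ⟨P, r, hPr⟩ : ∃ P r : F, P ^ 2 = (α ^ 2 - 4 * δ ^ 2) * r ^ 2 - 2 * τ * (α - 2 * δ) * r + (τ ^ 2 - 4 * δ) := by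
      by_cases hα2 : α + 2 * δ = 0
      · have hα' : α = -2 * δ := by linear_combination hα2
        refine ⟨0, -(τ ^ 2 - 4 * δ) / (8 * τ * δ), ?_⟩
        have h80 : (8 : F) ≠ 0 := by
          have : (8 : F) = 2 * 4 := by norm_num
          rw [this]
          exact mul_ne_zero h20 h40
        have hne : 8 * τ * δ ≠ 0 := mul_ne_zero (mul_ne_zero h80 hτ) hδ
        rw [hα']
        field_simp
        ring
      · have hne : α ^ 2 - 4 * δ ^ 2 ≠ 0 := by
          have : α ^ 2 - 4 * δ ^ 2 = (α - 2 * δ) * (α + 2 * δ) := by ring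
          rw [this]
          exact mul_ne_zero (sub_ne_zero.2 hα) hα2
        have hf : degree (X ^ 2 : F[X]) = 2 := by
          rw [degree_X_pow]; rfl
        have hg : degree (C (-(α ^ 2 - 4 * δ ^ 2)) * X ^ 2 + C (2 * τ * (α - 2 * δ)) * X + C (-(τ ^ 2 - 4 * δ)) : F[X]) = 2 :=
          degree_quadratic (neg_ne_zero.2 hne)
        obtain ⟨a, b, hab⟩ := FiniteField.exists_root_sum_quadratic hf hg hodd
        refine ⟨a, b, ?_⟩
        simp only [eval_pow, eval_X, eval_add, eval_mul, eval_C] at hab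
        linear_combination hab
    refine ⟨(P - α * r + τ) / 2, r, ?_⟩
    field_simp
    linear_combination hPr

/-- the companion matrix of `X² - τ X + δ` -/
def comp (τ δ : F) : Matrix (Fin 2) (Fin 2) F := !![0, -δ; 1, τ]

theorem comp_def (τ δ : F) : comp τ δ = !![0, -δ; 1, τ] := rfl

/-- a non-scalar matrix is conjugate to its companion matrix -/
theorem exists_conj_comp (M : Matrix (Fin 2) (Fin 2) F) (hM : ¬ (M 0 1 = 0 ∧ M 1 0 = 0 ∧ M 0 0 = M 1 1)) :
    ∃ P : Matrix (Fin 2) (Fin 2) F, P.det ≠ 0 ∧ M * P = P * comp M.trace M.det := by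
  by_cases h1 : M 1 0 = 0
  · by_cases h2 : M 0 1 = 0
    · have h3 : M 0 0 ≠ M 1 1 := fun h => hM ⟨h2, h1, h⟩
      refine ⟨!![1, M 0 0; 1, M 1 1], ?_, ?_⟩
      · rw [det_fin_two_of]
        intro h
        apply h3
        linear_combination -h
      · rw [trace_fin_two, det_fin_two, comp_def]
        ext i j
        fin_cases i <;> fin_cases j <;> simp [Matrix.mul_apply, Fin.sum_univ_two, h1, h2] <;> ring
    · refine ⟨!![0, M 0 1; 1, M 1 1], ?_, ?_⟩
      · rw [det_fin_two_of]
        intro h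
        apply h2
        linear_combination -h
      · rw [trace_fin_two, det_fin_two, comp_def]
        ext i j
        fin_cases i <;> fin_cases j <;> simp [Matrix.mul_apply, Fin.sum_univ_two, h1] <;> ring
  · refine ⟨!![1, M 0 0; 0, M 1 0], ?_, ?_⟩
    · rw [det_fin_two_of]
      intro h
      apply h1
      linear_combination h
    · rw [trace_fin_two, det_fin_two, comp_def]
      ext i j
      fin_cases i <;> fin_cases j <;> simp [Matrix.mul_apply, Fin.sum_univ_two] <;> ring

/-- **two conjugates of a given matrix**: the 2×2 lemma -/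
theorem exists_mul [Finite F] (τ δ : F) (hτ : τ ≠ 0) (hδ : δ ≠ 0) (S : Matrix (Fin 2) (Fin 2) F)
    (hS : ¬ (S 0 1 = 0 ∧ S 1 0 = 0 ∧ S 0 0 = S 1 1)) (hdet : S.det = δ ^ 2) (htr : S.trace ≠ 2 * δ) :
    ∃ M N : Matrix (Fin 2) (Fin 2) F, M.trace = τ ∧ M.det = δ ∧ N.trace = τ ∧ N.det = δ ∧ S = M * N := by
  obtain ⟨P, hP, hSP⟩ := exists_conj_comp S hS
  obtain ⟨p, r, hpr⟩ := conic τ δ S.trace hτ hδ htr
  set α := S.trace with hα
  have hu : IsUnit P.det := hP.isUnit
  let M0 : Matrix (Fin 2) (Fin 2) F := !![p, r * δ ^ 2 + p * α - τ * δ; r, τ - p]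
  let N0 : Matrix (Fin 2) (Fin 2) F :=
    !![-(r * δ ^ 2 + p * α - τ * δ) / δ, -((τ - p) * δ ^ 2 + (r * δ ^ 2 + p * α - τ * δ) * α) / δ;
       p / δ, (r * δ ^ 2 + p * α) / δ]
  have hM0t : M0.trace = τ := by
    simp [M0, trace_fin_two]
  have hM0d : M0.det = δ := by
    simp only [M0, det_fin_two_of]
    linear_combination -hpr
  have hN0t : N0.trace = τ := by
    simp only [N0, trace_fin_two_of]
    field_simp
    ring
  have hMN : M0 * N0 = comp α (δ ^ 2) := by
    rw [comp_def]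
    ext i j
    fin_cases i <;> fin_cases j <;> simp [M0, N0, Matrix.mul_apply, Fin.sum_univ_two] <;> field_simp
    · ring
    · linear_combination (δ ^ 2) * hpr
    · linear_combination hpr * (-1)
    · linear_combination (-α) * hpr
  have hN0d : N0.det = δ := by
    have h1 : M0.det * N0.det = δ ^ 2 := by
      rw [← det_mul, hMN, comp_def, det_fin_two_of]
      ring
    rw [hM0d] at h1
    have : δ * N0.det = δ * δ := by rw [h1]; ring
    exact mul_left_cancel₀ hδ this
  refine ⟨P * M0 * P⁻¹, P * N0 * P⁻¹, ?_, ?_, ?_, ?_, ?_⟩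
  · rw [trace_mul_comm, ← Matrix.mul_assoc, nonsing_inv_mul _ hu, Matrix.one_mul, hM0t]
  · rw [det_mul, det_mul, det_nonsing_inv, Ring.inverse_eq_inv', hM0d]
    field_simp
  · rw [trace_mul_comm, ← Matrix.mul_assoc, nonsing_inv_mul _ hu, Matrix.one_mul, hN0t]
  · rw [det_mul, det_mul, det_nonsing_inv, Ring.inverse_eq_inv', hN0d]
    field_simp
  · have h1 : P * M0 * P⁻¹ * (P * N0 * P⁻¹) = P * (M0 * N0) * P⁻¹ := by
      calc P * M0 * P⁻¹ * (P * N0 * P⁻¹) = P * M0 * (P⁻¹ * P) * N0 * P⁻¹ := by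
            simp only [Matrix.mul_assoc]
        _ = P * (M0 * N0) * P⁻¹ := by
            rw [nonsing_inv_mul _ hu, Matrix.mul_one]
            simp only [Matrix.mul_assoc]
    rw [h1, hMN, ← hdet, ← hSP, Matrix.mul_assoc, mul_nonsing_inv _ hu, Matrix.mul_one]

end Cfsg.Agent.H147.Two
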