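import Mathlib
import Cfsg.Agent.H147.Two
import Cfsg.Agent.H147.Irr

/-!
# `Sp₄(q)`: block triangular matrices and products of two conjugates of `diag(M, M⁻ᵀ)` (helper147)

`M` is a non-split 2×2 matrix of trace `τ` and determinant `δ ≠ 1`.
-/

set_option autoImplicit false

namespace Cfsg.Agent.H147.Four

open Matrix Polynomial Cfsg.Agent.H147

variable {F : Type*} [Field F]

/-- abbreviation for the 4×4 matrices -/
abbrev M4 (F : Type*) := Matrix (Fin 2 ⊕ Fin 2) (Fin 2 ⊕ Fin 2) F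

/-- abbreviation for the 2×2 matrices -/
abbrev M2 (F : Type*) := Matrix (Fin 2) (Fin 2) F

/-- the symplectic matrices -/
abbrev Sp (F : Type*) [Field F] : Submonoid (M4 F) := symplecticGroup (Fin 2) F

/-- the matrix `diag(M, M⁻ᵀ)`, `M` the companion matrix of `X² - τ X + δ` -/
noncomputable def X0 (τ δ : F) : M4 F := fromBlocks (Two.comp τ δ) 0 0 ((Two.comp τ δ)ᵀ)⁻¹

/-- conjugate to `X0 τ δ` in `Sp₄` -/
def IsC (τ δ : F) (y : M4 F) : Prop := ∃ P ∈ Sp F, y * P = P * X0 τ δ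

/-- a product of two conjugates of `X0 τ δ` -/
def Good (τ δ : F) (g : M4 F) : Prop := ∃ y z : M4 F, IsC τ δ y ∧ IsC τ δ z ∧ g = y * z

theorem unit_of_mem {P : M4 F} (hP : P ∈ Sp F) : IsUnit P.det := SymplecticGroup.symplectic_det hP

theorem inv_mem {P : M4 F} (hP : P ∈ Sp F) : P⁻¹ ∈ Sp F := by
  rw [SymplecticGroup.inv_eq_symplectic_inv P hP]
  exact (⟨P, hP⟩⁻¹ : symplecticGroup (Fin 2) F).2

variable {τ δ : F}

theorem IsC.conj {y : M4 F} (h : IsC τ δ y) {Q : M4 F} (hQ : Q ∈ Sp F) : IsC τ δ (Q * y * Q⁻¹) := by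
  obtain ⟨P, hP, hyP⟩ := h
  refine ⟨Q * P, mul_mem hQ hP, ?_⟩
  calc Q * y * Q⁻¹ * (Q * P) = Q * y * (Q⁻¹ * Q) * P := by simp only [Matrix.mul_assoc]
    _ = Q * (y * P) := by rw [nonsing_inv_mul _ (unit_of_mem hQ), Matrix.mul_one, Matrix.mul_assoc]
    _ = Q * P * X0 τ δ := by rw [hyP, Matrix.mul_assoc]

theorem IsC.of_conj {y G Q : M4 F} (h : IsC τ δ G) (hQ : Q ∈ Sp F) (hg : y * Q = Q * G) : IsC τ δ y := by
  have := h.conj hQ
  rwa [← hg, Matrix.mul_assoc, mul_nonsing_inv _ (unit_of_mem hQ), Matrix.mul_one] at this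

theorem Good.conj {g : M4 F} (h : Good τ δ g) {Q : M4 F} (hQ : Q ∈ Sp F) : Good τ δ (Q * g * Q⁻¹) := by
  obtain ⟨y, z, hy, hz, rfl⟩ := h
  refine ⟨_, _, hy.conj hQ, hz.conj hQ, ?_⟩
  calc Q * (y * z) * Q⁻¹ = Q * y * 1 * z * Q⁻¹ := by rw [Matrix.mul_one]; simp only [Matrix.mul_assoc]
    _ = Q * y * Q⁻¹ * (Q * z * Q⁻¹) := by
        rw [← nonsing_inv_mul Q (unit_of_mem hQ)]
        simp only [Matrix.mul_assoc]

theorem Good.of_conj {g G Q : M4 F} (h : Good τ δ G) (hQ : Q ∈ Sp F) (hg : g * Q = Q * G) : Good τ δ g := by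
  have := h.conj hQ
  rwa [← hg, Matrix.mul_assoc, mul_nonsing_inv _ (unit_of_mem hQ), Matrix.mul_one] at this

/-! ### elements of `Sp₄` -/

theorem lower_mem {Z : M2 F} (hZ : Zᵀ = Z) : fromBlocks 1 0 Z 1 ∈ Sp F := by
  rw [SymplecticGroup.fromBlocks_mem_iff]
  simp [hZ]

theorem upper_mem {Z : M2 F} (hZ : Zᵀ = Z) : fromBlocks 1 Z 0 1 ∈ Sp F := by
  rw [SymplecticGroup.fromBlocks_mem_iff]
  simp [hZ]

theorem diag_mem {M : M2 F} (hM : M.det ≠ 0) : fromBlocks M 0 0 (Mᵀ)⁻¹ ∈ Sp F := by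
  rw [SymplecticGroup.fromBlocks_mem_iff]
  simp only [mul_zero, transpose_zero, zero_mul, sub_zero, true_and]
  rw [mul_nonsing_inv _ (by rw [det_transpose]; exact hM.isUnit)]

/-- the assumptions on `τ`, `δ` -/
structure Hyp (τ δ : F) : Prop where
  t0 : τ ≠ 0
  d0 : δ ≠ 0
  d1 : δ ≠ 1
  irr : ∀ a : F, a ^ 2 - τ * a + δ ≠ 0

theorem Hyp.rel (H : Hyp τ δ) : (1 - δ) * ((1 + δ) ^ 2 - τ ^ 2) ≠ 0 := by
  refine mul_ne_zero (sub_ne_zero.2 H.d1.symm) ?_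
  intro h
  have h1 : (1 + δ - τ) * (1 + δ + τ) = 0 := by linear_combination h
  rcases mul_eq_zero.1 h1 with h1 | h1
  · apply H.irr 1
    linear_combination h1
  · apply H.irr (-1)
    linear_combination h1

/-- the two types of blocks -/
def Typ (τ δ : F) (M : M2 F) : Prop := (M.trace = τ ∧ M.det = δ) ∨ (M.trace = τ / δ ∧ M.det = 1 / δ)

theorem Hyp.typ_det (H : Hyp τ δ) {M : M2 F} (h : Typ τ δ M) : M.det ≠ 0 := by
  rcases h with h | h
  · rw [h.2]; exact H.d0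
  · rw [h.2]; exact div_ne_zero one_ne_zero H.d0

theorem Hyp.typ_rel (H : Hyp τ δ) {M : M2 F} (h : Typ τ δ M) :
    (1 - M.det) * ((1 + M.det) ^ 2 - M.trace ^ 2) ≠ 0 := by
  have hr := H.rel
  have hd := H.d0
  rcases h with h | h
  · rw [h.1, h.2]; exact hr
  · rw [h.1, h.2]
    have : (1 - 1 / δ) * ((1 + 1 / δ) ^ 2 - (τ / δ) ^ 2) = -((1 - δ) * ((1 + δ) ^ 2 - τ ^ 2)) / δ ^ 3 := by
      field_simp
      ring
    rw [this]
    exact div_ne_zero (neg_ne_zero.2 hr) (pow_ne_zero _ hd)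

theorem Hyp.typ_not_scalar (H : Hyp τ δ) {M : M2 F} (h : Typ τ δ M) :
    ¬ (M 0 1 = 0 ∧ M 1 0 = 0 ∧ M 0 0 = M 1 1) := by
  rintro ⟨h1, h2, h3⟩
  have hd := H.d0
  rcases h with h | h
  · obtain ⟨ht, hd'⟩ := h
    rw [trace_fin_two] at ht
    rw [det_fin_two, h1, h3] at hd'
    rw [h3] at ht
    apply H.irr (M 1 1)
    linear_combination -hd' + M 1 1 * ht
  · obtain ⟨ht, hd'⟩ := h
    rw [trace_fin_two] at ht
    rw [det_fin_two, h1, h3] at hd'
    rw [h3] at ht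
    apply H.irr (M 1 1 * δ)
    field_simp at ht hd'
    linear_combination -δ * hd' + M 1 1 * δ * ht

theorem typ_inv_transpose (H : Hyp τ δ) {M : M2 F} (h : Typ τ δ M) : Typ τ δ ((Mᵀ)⁻¹) := by
  have hd := H.d0
  have hM := H.typ_det h
  have e1 : ((Mᵀ)⁻¹).trace = M.trace / M.det := by
    rw [inv_def, det_transpose, Ring.inverse_eq_inv', trace_smul, adjugate_fin_two, trace_fin_two, trace_fin_two]
    simp
    field_simp
    ring
  have e2 : ((Mᵀ)⁻¹).det = 1 / M.det := by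
    rw [det_nonsing_inv, det_transpose, Ring.inverse_eq_inv', one_div]
  rcases h with h | h
  · right
    rw [e1, e2, h.1, h.2]
    exact ⟨rfl, rfl⟩
  · left
    rw [e1, e2, h.1, h.2]
    constructor <;> field_simp

/-- the Sylvester equation -/
theorem sylvester {M : M2 F} (hr : (1 - M.det) * ((1 + M.det) ^ 2 - M.trace ^ 2) ≠ 0)
    {X : M2 F} (hX : Xᵀ = X) : ∃ Z : M2 F, Zᵀ = Z ∧ Mᵀ * Z * M - Z = X := by
  set p := M 0 0 with hp
  set q := M 0 1 with hq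
  set r := M 1 0 with hr'
  set s := M 1 1 with hs
  have hX01 : X 0 1 = X 1 0 := by
    have := congrFun (congrFun hX 1) 0
    simpa using this
  let A : Matrix (Fin 3) (Fin 3) F :=
    !![p ^ 2 - 1, 2 * p * r, r ^ 2; p * q, p * s + q * r - 1, r * s; q ^ 2, 2 * q * s, s ^ 2 - 1]
  have hA : A.det ≠ 0 := by
    intro h
    apply hr
    rw [trace_fin_two, det_fin_two, ← hp, ← hq, ← hr', ← hs]
    rw [det_fin_three] at h
    simp [A] at h
    linear_combination (-1 : F) * h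
  have hsur := (Matrix.mulVec_surjective_iff_isUnit.2 ((Matrix.isUnit_iff_isUnit_det _).2 hA.isUnit)) ![X 0 0, X 0 1, X 1 1]
  obtain ⟨z, hz⟩ := hsur
  have z0 := congrFun hz 0
  have z1 := congrFun hz 1
  have z2 := congrFun hz 2
  simp [A, Matrix.mulVec, dotProduct, Fin.sum_univ_three] at z0 z1 z2
  refine ⟨!![z 0, z 1; z 1, z 2], ?_, ?_⟩
  · ext i j
    fin_cases i <;> fin_cases j <;> simp
  · ext i j
    fin_cases i <;> fin_cases j <;> simp [Matrix.mul_apply, Fin.sum_univ_two, ← hp, ← hq, ← hr', ← hs]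
    · linear_combination z0
    · linear_combination z1
    · rw [← hX01]
      linear_combination z1
    · linear_combination z2

theorem inv_inv_transpose {M : M2 F} (hM : M.det ≠ 0) : (((Mᵀ)⁻¹)ᵀ)⁻¹ = M := by
  rw [transpose_nonsing_inv, transpose_transpose, nonsing_inv_nonsing_inv _ hM.isUnit]

/-- block diagonal matrices -/
theorem diag_isC (H : Hyp τ δ) {M : M2 F} (h : Typ τ δ M) : IsC τ δ (fromBlocks M 0 0 (Mᵀ)⁻¹) := by
  have key : ∀ M : M2 F, (M.trace = τ ∧ M.det = δ) → IsC τ δ (fromBlocks M 0 0 (Mᵀ)⁻¹) := by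
    intro M hM
    obtain ⟨Q, hQ, hMQ⟩ := Two.exists_conj_comp M (H.typ_not_scalar (Or.inl hM))
    rw [hM.1, hM.2] at hMQ
    refine ⟨_, diag_mem hQ, ?_⟩
    rw [X0, fromBlocks_multiply, fromBlocks_multiply]
    simp only [mul_zero, zero_mul, add_zero, zero_add]
    rw [hMQ]
    congr 1
    have h1 := congrArg (fun A : M2 F => (Aᵀ)⁻¹) hMQ
    simp only [transpose_mul, Matrix.mul_inv_rev] at h1
    exact h1
  rcases h with h' | h'
  · exact key M h'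
  · have hM := H.typ_det (Or.inr h')
    have h1 := typ_inv_transpose H (Or.inr h' : Typ τ δ M)
    have h2 : ((Mᵀ)⁻¹).trace = τ ∧ ((Mᵀ)⁻¹).det = δ := by
      have hd := H.d0
      have e1 : ((Mᵀ)⁻¹).trace = M.trace / M.det := by
        rw [inv_def, det_transpose, Ring.inverse_eq_inv', trace_smul, adjugate_fin_two, trace_fin_two, trace_fin_two]
        simp
        field_simp
        ring
      have e2 : ((Mᵀ)⁻¹).det = 1 / M.det := by
        rw [det_nonsing_inv, det_transpose, Ring.inverse_eq_inv', one_div]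
      rw [e1, e2, h'.1, h'.2]
      constructor <;> field_simp
    have h3 := key _ h2
    rw [inv_inv_transpose hM] at h3
    refine h3.of_conj (SymplecticGroup.J_mem (Fin 2) F) ?_
    rw [J, fromBlocks_multiply, fromBlocks_multiply]
    simp

/-- block lower triangular matrices -/
theorem lower_isC (H : Hyp τ δ) {M : M2 F} (h : Typ τ δ M) {X : M2 F} (hX : Xᵀ = X) :
    IsC τ δ (fromBlocks M 0 (X * M) (Mᵀ)⁻¹) := by
  have hM := H.typ_det h
  have hMt : IsUnit (Mᵀ).det := by rw [det_transpose]; exact hM.isUnit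
  obtain ⟨Z, hZ, hMZ⟩ := sylvester (H.typ_rel h) (X := Mᵀ * X * M) (by
    rw [transpose_mul, transpose_mul, transpose_transpose, hX, Matrix.mul_assoc])
  refine (diag_isC H h).of_conj (lower_mem hZ) ?_
  rw [fromBlocks_multiply, fromBlocks_multiply]
  simp only [mul_zero, zero_mul, add_zero, zero_add, mul_one, one_mul]
  congr 1
  have h1 : Mᵀ * (X * M + (Mᵀ)⁻¹ * Z) = Mᵀ * (Z * M) := by
    rw [mul_add, ← Matrix.mul_assoc, ← Matrix.mul_assoc, ← Matrix.mul_assoc, mul_nonsing_inv _ hMt, Matrix.one_mul, ← hMZ,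
      sub_add_cancel]
  calc X * M + (Mᵀ)⁻¹ * Z = (Mᵀ)⁻¹ * (Mᵀ * (X * M + (Mᵀ)⁻¹ * Z)) := by
        rw [← Matrix.mul_assoc, nonsing_inv_mul _ hMt, Matrix.one_mul]
    _ = Z * M := by rw [h1, ← Matrix.mul_assoc, nonsing_inv_mul _ hMt, Matrix.one_mul]

/-- block upper triangular matrices -/
theorem upper_isC (H : Hyp τ δ) {N : M2 F} (h : Typ τ δ N) {Y : M2 F} (hY : Yᵀ = Y) :
    IsC τ δ (fromBlocks N (N * Y) 0 (Nᵀ)⁻¹) := by
  have hN := H.typ_det h
  have hNt : IsUnit (Nᵀ).det := by rw [det_transpose]; exact hN.isUnit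
  have h1 := lower_isC H (typ_inv_transpose H h) (X := -(N * Y * Nᵀ)) (by
    rw [transpose_neg, transpose_mul, transpose_mul, transpose_transpose, hY, Matrix.mul_assoc])
  rw [inv_inv_transpose hN] at h1
  refine h1.of_conj (SymplecticGroup.J_mem (Fin 2) F) ?_
  rw [J, fromBlocks_multiply, fromBlocks_multiply]
  simp only [mul_zero, zero_mul, add_zero, zero_add, mul_one, one_mul, neg_mul, mul_neg, neg_neg, neg_zero]
  congr 1
  rw [Matrix.mul_assoc (N * Y), mul_nonsing_inv _ hNt, Matrix.mul_one]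

/-- **block decomposition** -/
theorem good_block (H : Hyp τ δ) {M N B C D : M2 F} (hM : Typ τ δ M) (hN : Typ τ δ N)
    (hG : fromBlocks (M * N) B C D ∈ Sp F) : Good τ δ (fromBlocks (M * N) B C D) := by
  have hMd := (H.typ_det hM).isUnit
  have hNd := (H.typ_det hN).isUnit
  have hSd : IsUnit (M * N).det := by rw [det_mul]; exact hMd.mul hNd
  have hStd : IsUnit ((M * N)ᵀ).det := by rw [det_transpose]; exact hSd
  obtain ⟨S, hS⟩ : ∃ S, S = M * N := ⟨_, rfl⟩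
  rw [← hS] at hG hSd hStd ⊢
  rw [SymplecticGroup.fromBlocks_mem_iff] at hG
  obtain ⟨h1, h2, h3⟩ := hG
  -- `X = C S⁻¹`, `Y = S⁻¹ B`
  have hX : (C * S⁻¹)ᵀ = C * S⁻¹ := by
    rw [transpose_mul, transpose_nonsing_inv]
    calc (Sᵀ)⁻¹ * Cᵀ = (Sᵀ)⁻¹ * (Cᵀ * S) * S⁻¹ := by
          rw [Matrix.mul_assoc, Matrix.mul_assoc, mul_nonsing_inv _ hSd, Matrix.mul_one]
      _ = C * S⁻¹ := by
          rw [← h1, ← Matrix.mul_assoc (Sᵀ)⁻¹, nonsing_inv_mul _ hStd, Matrix.one_mul]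
  have hD : D = (Sᵀ)⁻¹ + C * S⁻¹ * B := by
    have h4 : Sᵀ * D = 1 + Cᵀ * B := by rw [← h3]; abel
    calc D = (Sᵀ)⁻¹ * (Sᵀ * D) := by rw [← Matrix.mul_assoc, nonsing_inv_mul _ hStd, Matrix.one_mul]
      _ = (Sᵀ)⁻¹ + (Sᵀ)⁻¹ * Cᵀ * B := by rw [h4, mul_add, Matrix.mul_one, Matrix.mul_assoc]
      _ = (Sᵀ)⁻¹ + C * S⁻¹ * B := by
          rw [← hX, transpose_mul, transpose_nonsing_inv]
  have hY : (S⁻¹ * B)ᵀ = S⁻¹ * B := by
    -- `Bᵀ D` symmetric
    have h5 : Bᵀ * (Sᵀ)⁻¹ + Bᵀ * (C * S⁻¹ * B) = S⁻¹ * B + Bᵀ * (C * S⁻¹ * B) := by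
      have e1 : Bᵀ * D = Bᵀ * (Sᵀ)⁻¹ + Bᵀ * (C * S⁻¹ * B) := by
        rw [hD, mul_add]
      have e2 : Dᵀ * B = S⁻¹ * B + Bᵀ * (C * S⁻¹ * B) := by
        rw [hD, transpose_add, transpose_mul (C * S⁻¹) B, hX, add_mul, ← transpose_nonsing_inv, transpose_transpose,
          Matrix.mul_assoc Bᵀ]
      rw [← e1, ← e2, h2]
    rw [transpose_mul, transpose_nonsing_inv]
    exact add_right_cancel h5
  refine ⟨fromBlocks M 0 (C * S⁻¹ * M) (Mᵀ)⁻¹, fromBlocks N (N * (S⁻¹ * B)) 0 (Nᵀ)⁻¹, lower_isC H hM hX,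
    upper_isC H hN hY, ?_⟩
  rw [fromBlocks_multiply]
  simp only [mul_zero, zero_mul, add_zero]
  have e1 : M * (N * (S⁻¹ * B)) = B := by
    rw [← Matrix.mul_assoc, ← hS, ← Matrix.mul_assoc, mul_nonsing_inv _ hSd, Matrix.one_mul]
  have e2 : C * S⁻¹ * M * N = C := by
    rw [Matrix.mul_assoc (C * S⁻¹), ← hS, Matrix.mul_assoc, nonsing_inv_mul _ hSd, Matrix.mul_one]
  have e3 : C * S⁻¹ * M * (N * (S⁻¹ * B)) + (Mᵀ)⁻¹ * (Nᵀ)⁻¹ = D := by
    have e4 : (Mᵀ)⁻¹ * (Nᵀ)⁻¹ = (Sᵀ)⁻¹ := by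
      rw [hS, transpose_mul, Matrix.mul_inv_rev]
    rw [e4, hD, add_comm, Matrix.mul_assoc (C * S⁻¹), e1]
  rw [e1, e2, e3, hS]

end Cfsg.Agent.H147.Four
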