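import Mathlib
import Cfsg.Agent.H147.FourB

/-!
# `Sp₄(q)`: every element `≠ ± 1` is, up to sign, a product of two conjugates of `diag(M, M⁻ᵀ)` (helper147)
-/

set_option autoImplicit false

namespace Cfsg.Agent.H147.Four

open Matrix Polynomial Cfsg.Agent.H147

variable {F : Type*} [Field F] {τ δ : F}

/-- transvections -/
theorem good_trans [Finite F] (H : Hyp τ δ) {c : F} (hc : c ≠ 0) :
    Good τ δ (fromBlocks !![0, 0; 0, 1] !![1 / c, 0; 0, 0] !![-c, 0; 0, 0] !![2, 0; 0, 1]) := by
  have hP : fromBlocks !![δ ^ 2 - 2, -1 / c; 0, 1] !![1 / c, 0; 0, 0] !![-c, 0; -1, 0] !![0, 0; 0, 1] ∈ Sp F := by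
    rw [SymplecticGroup.fromBlocks_mem_iff]
    refine ⟨?_, ?_, ?_⟩ <;>
    · ext i j
      fin_cases i <;> fin_cases j <;> simp [Matrix.mul_apply, Fin.sum_univ_two] <;> field_simp <;> ring
  have hG : fromBlocks !![δ ^ 2, -1 / c; 0, 1] !![1 / c, 0; 0, 0]
      !![-(c * (δ ^ 2 - 1) * (δ ^ 2 - 1)), δ ^ 2 - 1; δ ^ 2 - 1, -1 / c] !![2 - δ ^ 2, 0; 1 / c, 1] ∈ Sp F := by
    rw [SymplecticGroup.fromBlocks_mem_iff]
    refine ⟨?_, ?_, ?_⟩ <;>
    · ext i j
      fin_cases i <;> fin_cases j <;> simp [Matrix.mul_apply, Fin.sum_univ_two] <;> field_simp <;> ring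
  obtain ⟨M, N, hMt, hMd, hNt, hNd, hMN⟩ := Two.exists_mul τ δ H.t0 H.d0
    !![δ ^ 2, -1 / c; 0, 1] (by
      rintro ⟨e1, -, -⟩
      simp [hc] at e1) (by
      rw [det_fin_two_of]
      ring) (by
      rw [trace_fin_two_of]
      intro h
      have : (δ - 1) * (δ - 1) = 0 := by linear_combination h
      exact H.d1 (sub_eq_zero.1 (mul_self_eq_zero.1 this)))
  rw [hMN] at hG
  have hgood := good_block H (Or.inl ⟨hMt, hMd⟩) (Or.inl ⟨hNt, hNd⟩) hG
  refine hgood.of_conj hP ?_
  rw [← hMN, fromBlocks_multiply, fromBlocks_multiply]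
  rw [fromBlocks_inj]
  refine ⟨?_, ?_, ?_, ?_⟩ <;>
  · ext i j
    fin_cases i <;> fin_cases j <;> simp [Matrix.mul_apply, Fin.sum_univ_two] <;> field_simp <;> ring

/-- the four-parameter family -/
def Gm (c a b t : F) : M4 F :=
  fromBlocks !![0, 0; 0, 1] !![1 / c, 0; b, 0] !![-c, -(c * a); 0, 0] !![t, -(c * b); -a, 1]

theorem Gm_mem {c : F} (hc : c ≠ 0) (a b t : F) : Gm c a b t ∈ Sp F := by
  rw [Gm, SymplecticGroup.fromBlocks_mem_iff]
  refine ⟨?_, ?_, ?_⟩ <;>
  · ext i j
    fin_cases i <;> fin_cases j <;> simp [Matrix.mul_apply, Fin.sum_univ_two] <;> field_simp <;> ring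

/-- a vector with given coordinates -/
def vec (x y z w : F) : Fin 2 ⊕ Fin 2 → F := Sum.elim ![x, y] ![z, w]

theorem Gm_mulVec (c a b t x y z w : F) : Gm c a b t *ᵥ vec x y z w =
    vec (z / c) (y + b * z) (-(c * x) - c * a * y + t * z - c * b * w) (-(a * z) + w) := by
  rw [Gm, vec, fromBlocks_mulVec]
  ext i
  rcases i with i | i <;> fin_cases i <;>
    simp [vec, Matrix.mulVec, dotProduct, Fin.sum_univ_two] <;> ring

theorem bf_vec (x y z w x' y' z' w' : F) : bf (vec x y z w) (vec x' y' z' w') = z * x' + w * y' - x * z' - y * w' := by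
  simp [bf, vec]

/-- the members of the family are good -/
theorem good_Gm [Finite F] (H : Hyp τ δ) (hF : (2 : F) = 0 → ∃ m : F, m ≠ 0 ∧ m ≠ 1) {c : F} (hc : c ≠ 0) (a b t : F) :
    Good τ δ (Gm c a b t) := by
  by_cases hab : a = 0 ∧ b = 0
  · obtain ⟨rfl, rfl⟩ := hab
    by_cases ht : t = 2
    · have := good_trans H hc
      convert this using 1
      rw [Gm, ht]
      simp
    · refine good_i H (Gm_mem hc _ _ _) (vec 1 1 0 0) (vec (-1 / c) 0 (-1) 1) ?_ ?_ ?_ ?_
      · rw [bf_vec]; ring
      · rw [Gm_mulVec, bf_vec]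
        simpa using hc
      · rw [Gm_mulVec, bf_vec]
        field_simp
        ring
      · rw [Gm_mulVec, bf_vec]
        intro h
        apply ht
        field_simp at h
        linear_combination -h
  · -- the element with parameter `s`
    have key : ∀ s : F, s ≠ 0 → -2 / s + (2 - t) / c ≠ 0 → Good τ δ (Gm c a b t) := by
      intro s hs hst
      by_cases ha : a = 0
      · have hb : b ≠ 0 := fun h => hab ⟨ha, h⟩
        refine good_i H (Gm_mem hc _ _ _) (vec 1 (s * b) 0 0) (vec (-1 / c) 0 (-1) (1 / (s * b))) ?_ ?_ ?_ ?_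
        · rw [bf_vec]; field_simp; ring
        · rw [Gm_mulVec, bf_vec, ha]
          simpa using hc
        · rw [Gm_mulVec, bf_vec, ha]
          field_simp
          ring
        · rw [Gm_mulVec, bf_vec, ha]
          refine ne_of_eq_of_ne (b := -2 / s + (2 - t) / c) ?_ hst
          field_simp
          ring
      · refine good_i H (Gm_mem hc _ _ _) (vec 1 (s * b) 0 (-(s * a))) (vec (-1 / c) (1 / (s * a)) (-1) 0) ?_ ?_ ?_ ?_
        · rw [bf_vec]; field_simp; ring
        · rw [Gm_mulVec, bf_vec]
          intro h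
          apply hc
          linear_combination h
        · rw [Gm_mulVec, bf_vec]
          field_simp
          ring
        · rw [Gm_mulVec, bf_vec]
          refine ne_of_eq_of_ne (b := -2 / s + (2 - t) / c) ?_ hst
          field_simp
          ring
    by_cases h2 : (2 : F) = 0
    · by_cases ht : t = 0
      · obtain ⟨m, hm0, hm1⟩ := hF h2
        have hm2 : 1 + m ≠ 0 := by
          intro h
          apply hm1
          linear_combination h - h2
        have hval : (m ^ 2 + 2 * m + 2) / (c * (1 + m) ^ 2) ≠ 0 := by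
          refine div_ne_zero ?_ (mul_ne_zero hc (pow_ne_zero 2 hm2))
          intro h
          have h3 : m * m = 0 := by
            linear_combination h - (m + 1) * h2
          exact hm0 (mul_self_eq_zero.1 h3)
        by_cases ha : a = 0
        · have hb : b ≠ 0 := fun h => hab ⟨ha, h⟩
          refine good_i H (Gm_mem hc _ _ _) (vec 1 0 0 (m / b)) (vec (-1 / (c * (1 + m))) (-b / m) (-1) (a / m)) ?_ ?_ ?_ ?_
          · rw [bf_vec]; field_simp; ring
          · rw [Gm_mulVec, bf_vec]
            refine ne_of_eq_of_ne (b := c * (1 + m)) ?_ (mul_ne_zero hc hm2)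
            field_simp
            ring
          · rw [Gm_mulVec, bf_vec]
            field_simp
            ring
          · rw [Gm_mulVec, bf_vec, ht]
            refine ne_of_eq_of_ne ?_ hval
            field_simp
            ring
        · refine good_i H (Gm_mem hc _ _ _) (vec 1 (m / a) 0 0) (vec (-1 / (c * (1 + m))) (-b / m) (-1) (a / m)) ?_ ?_ ?_ ?_
          · rw [bf_vec]; field_simp; ring
          · rw [Gm_mulVec, bf_vec]
            refine ne_of_eq_of_ne (b := c * (1 + m)) ?_ (mul_ne_zero hc hm2)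
            field_simp
            ring
          · rw [Gm_mulVec, bf_vec]
            field_simp
            ring
          · rw [Gm_mulVec, bf_vec, ht]
            refine ne_of_eq_of_ne ?_ hval
            field_simp
            ring
      · apply key 1 one_ne_zero
        intro h
        field_simp at h
        apply ht
        linear_combination -h + (1 - c) * h2
    · by_cases h4 : -2 / 1 + (2 - t) / c = 0
      · apply key (-1) (neg_ne_zero.2 one_ne_zero)
        intro h
        have : (2 : F) * 2 = 0 := by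
          linear_combination h - h4
        exact h2 (mul_self_eq_zero.1 this)
      · exact key 1 one_ne_zero h4

end Cfsg.Agent.H147.Four
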